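import Cfsg.Agent.H969.TwF.Row

/-!
# The automizer of an element of order 11 of `²F₄(q)` (helper969, for S4880)

* `five_dvd` : `A ^ 11 = 1`, `A` conjugate to `A ^ 3`: `dim V = dim V^A + 5 k`;
* `fx_eleven` : under `Hyp 11 2 S` the fixed space of an element of order 11 has dimension 4;
* `no_conj` : `g x g⁻¹ ≠ x ^ j`, `j ∈ {3, 4, 5, 9}`.
-/

set_option autoImplicit false
set_option linter.unusedSectionVars false

namespace Cfsg.Agent.H969.TwF

open Cfsg.Lie Cfsg.Agent.H319.One Cfsg.Agent.H319.One.Weights Module Finset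

section Five

variable {F : Type*} [Field F] {ι : Type*} [Fintype ι] [DecidableEq ι]

theorem five_dvd (hF : (11 : F) ≠ 0) {A G : GL ι F} (hA : A ^ 11 = 1) (hG : G * A * G⁻¹ = A ^ 3) :
    ∃ k, Fintype.card ι = fx (A : Matrix ι ι F) + 5 * k := by
  classical
  by_cases hA1 : A = 1
  · refine ⟨0, ?_⟩
    have h1 := fx_add_rank (A : Matrix ι ι F)
    rw [hA1, Units.val_one, sub_self, Matrix.rank_zero] at h1
    rw [hA1, Units.val_one]
    omega
  have hp : Nat.Prime 11 := by norm_num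
  have hfp : Fact (Nat.Prime 11) := ⟨hp⟩
  have hord : orderOf A = 11 := orderOf_eq_prime hA hA1
  have hcomm : ∀ a b : ↥(Subgroup.zpowers A), a * b = b * a := by
    rintro ⟨a, k, rfl⟩ ⟨b, l, rfl⟩
    apply Subtype.ext
    show A ^ k * A ^ l = A ^ l * A ^ k
    rw [← zpow_add, ← zpow_add, add_comm]
  let _ : CommGroup ↥(Subgroup.zpowers A) :=
    { (inferInstance : Group ↥(Subgroup.zpowers A)) with mul_comm := hcomm }
  have hcard : Nat.card ↥(Subgroup.zpowers A) = 11 := by rw [Nat.card_zpowers, hord]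
  have hfin : Finite ↥(Subgroup.zpowers A) := Nat.finite_of_card_ne_zero (by rw [hcard]; norm_num)
  have : Fintype ↥(Subgroup.zpowers A) := Fintype.ofFinite _
  let x0 : ↥(Subgroup.zpowers A) := ⟨A, Subgroup.mem_zpowers A⟩
  have hx0 : ∀ y : ↥(Subgroup.zpowers A), ∃ k : ℕ, y = x0 ^ k := by
    intro y
    have h1 : (y : GL ι F) ∈ Submonoid.powers A := by
      rw [(isOfFinOrder_iff_pow_eq_one.2 ⟨11, by norm_num, hA⟩).mem_powers_iff_mem_zpowers]
      exact y.2
    obtain ⟨k, hk⟩ := h1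
    exact ⟨k, Subtype.ext hk.symm⟩
  let ρ : ↥(Subgroup.zpowers A) →* Matrix ι ι F := (Units.coeHom _).comp (Subgroup.zpowers A).subtype
  let L := AlgebraicClosure F
  let i := algebraMap F L
  let ρ' := (RingHom.mapMatrix i).toMonoidHom.comp ρ
  have hP : (Fintype.card ↥(Subgroup.zpowers A) : F) ≠ 0 := by
    rw [← Nat.card_eq_fintype_card, hcard]
    exact_mod_cast hF
  have hP' : (Fintype.card ↥(Subgroup.zpowers A) : L) ≠ 0 := by
    intro h
    apply hP
    apply i.injective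
    rw [map_natCast, h, map_zero]
  have hfd := finite_dual hP'
  have : Fintype (↥(Subgroup.zpowers A) →* Lˣ) := Fintype.ofFinite _
  set R := rp ρ' with hR
  let f : (↥(Subgroup.zpowers A) →* Lˣ) → ℕ := fun χ => finrank L ↥(wt R χ)
  -- the sum
  have hsum : Fintype.card ι = ∑ χ, f χ := by
    have h1 := finrank_eq_sum R hP' ⊤ (fun _ _ _ => Submodule.mem_top)
    rw [finrank_top, Module.finrank_fintype_fun_eq_card] at h1
    rw [h1]
    refine Finset.sum_congr rfl fun χ _ => ?_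
    rw [top_inf_eq]
  -- the fixed vectors
  have hf1 : f 1 = fx (A : Matrix ι ι F) := by
    have h1 : wt R 1 = fixS R (Subgroup.zpowers x0) := by
      ext v
      rw [mem_wt, mem_fixS]
      constructor
      · intro h y _
        rw [h y, MonoidHom.one_apply, Units.val_one, one_smul]
      · intro h y
        rw [MonoidHom.one_apply, Units.val_one, one_smul]
        obtain ⟨k, hk⟩ := hx0 y
        exact h y (by rw [hk]; exact Subgroup.npow_mem_zpowers x0 k)
    show finrank L ↥(wt R 1) = _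
    rw [h1, hR, finrank_fixS_zpowers]
    show fx (((A : GL ι F) : Matrix ι ι F).map i) = _
    rw [fx_map]
  -- the conjugation
  have hRx : ∀ v, R x0 v = (((A : GL ι F) : Matrix ι ι F).map i).mulVec v := fun v => rp_apply ρ' x0 v
  have hle : ∀ χ ψ : ↥(Subgroup.zpowers A) →* Lˣ, (∀ y, ψ y = χ y ^ 4) → f χ ≤ f ψ := by
    intro χ ψ hψ
    let g : (ι → L) →ₗ[L] (ι → L) := Matrix.toLin' (((G : GL ι F) : Matrix ι ι F).map i)
    let g' : (ι → L) →ₗ[L] (ι → L) := Matrix.toLin' (((G⁻¹ : GL ι F) : Matrix ι ι F).map i)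
    have hg : Function.Injective g := by
      have h1 : Function.LeftInverse g' g := by
        intro v
        show (((G⁻¹ : GL ι F) : Matrix ι ι F).map i).mulVec ((((G : GL ι F) : Matrix ι ι F).map i).mulVec v) = v
        rw [Matrix.mulVec_mulVec, ← Matrix.map_mul, Units.inv_mul, Matrix.map_one i (map_zero i) (map_one i),
          Matrix.one_mulVec]
      exact h1.injective
    have hrel : ∀ v, (R x0 ^ 3) (g v) = g (R x0 v) := by
      intro v
      have h1 : (R x0 ^ 3) (g v) = R (x0 ^ 3) (g v) := by rw [map_pow]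
      have h2 : R (x0 ^ 3) (g v) = ((((A ^ 3 : GL ι F)) : Matrix ι ι F).map i).mulVec (g v) := rp_apply ρ' (x0 ^ 3) (g v)
      rw [h1, h2, hRx]
      show (((A ^ 3 : GL ι F) : Matrix ι ι F).map i).mulVec ((((G : GL ι F) : Matrix ι ι F).map i).mulVec v) =
        (((G : GL ι F) : Matrix ι ι F).map i).mulVec ((((A : GL ι F) : Matrix ι ι F).map i).mulVec v)
      rw [Matrix.mulVec_mulVec, Matrix.mulVec_mulVec, ← Matrix.map_mul, ← Matrix.map_mul, ← Units.val_mul,
        ← Units.val_mul, ← hG, inv_mul_cancel_right]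
    have h12 : R x0 ^ 12 = R x0 := by
      rw [← map_pow]
      congr 1
      apply Subtype.ext
      show A ^ 12 = A
      rw [pow_succ, hA, one_mul]
    have hmem : ∀ v ∈ wt R χ, g v ∈ wt R ψ := by
      intro v hv
      have h1 : (R x0 ^ 3) (g v) = ((χ x0 : Lˣ) : L) • g v := by
        rw [hrel, hv x0, map_smul]
      have h2 : ∀ k : ℕ, ((R x0 ^ 3) ^ k) (g v) = (((χ x0) ^ k : Lˣ) : L) • g v := by
        intro k
        induction k with
        | zero =>
          rw [pow_zero, pow_zero, Units.val_one, one_smul]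
          rfl
        | succ k ih =>
          rw [pow_succ']
          show (R x0 ^ 3) (((R x0 ^ 3) ^ k) (g v)) = _
          rw [ih, map_smul, h1, smul_smul, pow_succ, Units.val_mul]
      have h3 : R x0 (g v) = (((χ x0) ^ 4 : Lˣ) : L) • g v := by
        rw [← h2 4, ← pow_mul, h12]
      have h4 : ∀ k : ℕ, (R x0 ^ k) (g v) = ((((χ x0) ^ 4) ^ k : Lˣ) : L) • g v := by
        intro k
        induction k with
        | zero =>
          rw [pow_zero, pow_zero, Units.val_one, one_smul]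
          rfl
        | succ k ih =>
          rw [pow_succ']
          show (R x0) ((R x0 ^ k) (g v)) = _
          rw [ih, map_smul, h3, smul_smul]
          congr 1
          rw [← Units.val_mul, ← pow_succ]
      intro y
      obtain ⟨k, rfl⟩ := hx0 y
      rw [map_pow, h4, map_pow, hψ]
    have h5 : (wt R χ).map g ≤ wt R ψ := by
      rintro _ ⟨v, hv, rfl⟩
      exact hmem v hv
    calc f χ = finrank L ↥((wt R χ).map g) := (Submodule.equivMapOfInjective g hg (wt R χ)).finrank_eq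
      _ ≤ f ψ := Submodule.finrank_mono h5
  -- a generator of the dual
  have hcd : Nat.card (↥(Subgroup.zpowers A) →* Lˣ) = 11 := by
    rw [card_dual hP', ← Nat.card_eq_fintype_card, hcard]
  have hnt : Nontrivial (↥(Subgroup.zpowers A) →* Lˣ) := by
    rw [← Finite.one_lt_card_iff_nontrivial, hcd]
    norm_num
  obtain ⟨χ, hχ⟩ := exists_ne (1 : ↥(Subgroup.zpowers A) →* Lˣ)
  have hχ11 : χ ^ 11 = 1 := by
    rw [← hcd]
    exact pow_card_eq_one'
  have hχo : orderOf χ = 11 := orderOf_eq_prime hχ11 hχ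
  have hgen : ∀ ψ, ψ ∈ Subgroup.zpowers χ := by
    intro ψ
    have h1 : Subgroup.zpowers χ = ⊤ := by
      apply Subgroup.eq_top_of_card_eq
      rw [Nat.card_zpowers, hχo, hcd]
    rw [h1]
    exact Subgroup.mem_top ψ
  have himg := IsCyclic.image_range_orderOf hgen
  have hsum2 : ∑ ψ, f ψ = ∑ j ∈ range 11, f (χ ^ j) := by
    rw [← himg, hχo, Finset.sum_image]
    intro a ha b hb hab
    have ha' : a < 11 := by simpa using ha
    have hb' : b < 11 := by simpa using hb
    exact pow_injOn_Iio_orderOf (by rw [Set.mem_Iio, hχo]; exact ha') (by rw [Set.mem_Iio, hχo]; exact hb') hab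
  have hred : ∀ a b : ℕ, a * 4 = b + 11 * ((a * 4 - b) / 11) → f (χ ^ a) ≤ f (χ ^ b) := by
    intro a b hab
    refine hle _ _ fun y => ?_
    have h2 : (χ y) ^ 11 = 1 := by
      have h3 := DFunLike.congr_fun hχ11 y
      exact h3
    show (χ y) ^ b = ((χ y) ^ a) ^ 4
    rw [← pow_mul, hab, pow_add, pow_mul, h2, one_pow, mul_one]
  have l1 := hred 1 4 (by norm_num)
  have l2 := hred 4 5 (by norm_num)
  have l3 := hred 5 9 (by norm_num)
  have l4 := hred 9 3 (by norm_num)
  have l5 := hred 3 1 (by norm_num)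
  have k1 := hred 2 8 (by norm_num)
  have k2 := hred 8 10 (by norm_num)
  have k3 := hred 10 7 (by norm_num)
  have k4 := hred 7 6 (by norm_num)
  have k5 := hred 6 2 (by norm_num)
  refine ⟨f (χ ^ 1) + f (χ ^ 2), ?_⟩
  rw [hsum, hsum2]
  simp only [Finset.sum_range_succ, Finset.sum_range_zero]
  have hf0 : f (χ ^ 0) = fx (A : Matrix ι ι F) := by
    rw [← hf1]
    congr 1
    exact pow_zero χ
  omega

end Five

section Conj

variable {X : Type*} [Group X]

theorem conj_pow_iter {g x : X} {j : ℕ} (h : g * x * g⁻¹ = x ^ j) (b : ℕ) : g ^ b * x * (g ^ b)⁻¹ = x ^ j ^ b := by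
  induction b with
  | zero => rw [pow_zero, pow_zero, pow_one, one_mul, inv_one, mul_one]
  | succ b ih =>
    calc g ^ (b + 1) * x * (g ^ (b + 1))⁻¹ = g ^ b * (g * x * g⁻¹) * (g ^ b)⁻¹ := by rw [pow_succ]; group
      _ = g ^ b * x ^ j * (g ^ b)⁻¹ := by rw [h]
      _ = (g ^ b * x * (g ^ b)⁻¹) ^ j := (conj_pow).symm
      _ = x ^ j ^ (b + 1) := by rw [ih, ← pow_mul, pow_succ]

/-- `x` conjugate to `x ^ j`, `j` of order 5 modulo 11: `x` is conjugate to `x ^ 3` -/
theorem conj_three {x g : X} (hx : x ^ 11 = 1) {j : ℕ} (hj : j = 3 ∨ j = 4 ∨ j = 5 ∨ j = 9)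
    (h : g * x * g⁻¹ = x ^ j) : ∃ g' : X, g' * x * g'⁻¹ = x ^ 3 := by
  have key : ∀ k : ℕ, x ^ (3 + 11 * k) = x ^ 3 := fun k => by rw [pow_add, pow_mul, hx, one_pow, mul_one]
  rcases hj with rfl | rfl | rfl | rfl
  · exact ⟨g, h⟩
  · exact ⟨g ^ 4, (conj_pow_iter h 4).trans (key 23)⟩
  · exact ⟨g ^ 2, (conj_pow_iter h 2).trans (key 2)⟩
  · exact ⟨g ^ 3, (conj_pow_iter h 3).trans (key 66)⟩

end Conj

section Main

variable {K : Type*} [Field K] [Fintype K] {m : ℕ}

/-- the fixed space of an element of order 11 -/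
theorem fx_eleven [CharP K 2] (hm : 1 ≤ m) (hK : Fintype.card K = 2 ^ (2 * m + 1)) [hp : Fact (Nat.Prime 11)]
    (h : Hyp 11 2 ↥(twistedF4 K (2 ^ m))) {x : ↥(twistedF4 K (2 ^ m))} (hx : orderOf x = 11) :
    fx ((rh K (2 ^ m) x : GL WI K) : Matrix WI WI K) = 4 := by
  classical
  obtain ⟨Q⟩ : Nonempty (Sylow 11 ↥(twistedF4 K (2 ^ m))) := inferInstance
  have hcard : Nat.card (Q : Subgroup ↥(twistedF4 K (2 ^ m))) = 11 ^ (0 + 2) := h.card Q
  have hcomm : ∀ a b : (Q : Subgroup ↥(twistedF4 K (2 ^ m))), a * b = b * a := by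
    intro a b
    exact Subtype.ext (h.comm Q Q.2 a a.2 b b.2)
  have hexp : ∀ y : (Q : Subgroup ↥(twistedF4 K (2 ^ m))), y ^ 11 = 1 := by
    intro y
    obtain ⟨k, hk1⟩ := Q.2 y
    exact Subtype.ext (h.exp _ k (congrArg Subtype.val hk1))
  let _ : CommGroup (Q : Subgroup ↥(twistedF4 K (2 ^ m))) :=
    { (inferInstance : Group (Q : Subgroup ↥(twistedF4 K (2 ^ m)))) with mul_comm := hcomm }
  have hord : ∀ y : (Q : Subgroup ↥(twistedF4 K (2 ^ m))), y ≠ 1 → orderOf (y : ↥(twistedF4 K (2 ^ m))) = 11 := by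
    intro y hy
    rw [Subgroup.orderOf_coe]
    exact orderOf_eq_prime (hexp y) hy
  let ρ' : (Q : Subgroup ↥(twistedF4 K (2 ^ m))) →* Matrix WI WI K :=
    (Units.coeHom _).comp ((rh K (2 ^ m)).comp (Q : Subgroup ↥(twistedF4 K (2 ^ m))).subtype)
  have hpF : ¬ 11 ∣ Nat.card K := by
    rw [Nat.card_eq_fintype_card, hK]
    intro h2
    have h3 := (Nat.prime_dvd_prime_iff_eq hp.out Nat.prime_two).1 (hp.out.dvd_of_dvd_pow h2)
    omega
  obtain ⟨c, t, h1, h2, h3⟩ := line ρ' (p := 11) (a := 0) (f := fx ((rh K (2 ^ m) x : GL WI K) : Matrix WI WI K))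
    hp.out hpF hcard hexp (fun y hy => by
      obtain ⟨φ, hφ⟩ := h.one (y : ↥(twistedF4 K (2 ^ m))) x (hord y hy) hx
      have h4 := fx_rho_aut hm hK φ (y : ↥(twistedF4 K (2 ^ m)))
      rw [hφ] at h4
      exact h4.symm)
  rw [card_WI] at h1
  have hb := bound hm hK h
  have e1 : ∑ i ∈ range 2, 11 ^ i = 12 := by decide
  have e2 : ∑ i ∈ range (0 + 2), 11 ^ i = 12 := by decide
  have e3 : ∑ i ∈ range (0 + 1), 11 ^ i = 1 := by decide
  rw [e1] at hb
  rw [e2] at h1
  rw [e3] at h2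
  have hd1 : orderOf ((Fintype.card K : ℕ) : ZMod 11) ≠ 1 := by
    intro h0
    rw [orderOf_eq_one_iff] at h0
    apply not_dvd_sub_one hm hK h
    have h1 : 1 ≤ Fintype.card K := Fintype.card_pos
    have h2 : (((Fintype.card K - 1 : ℕ)) : ZMod 11) = 0 := by
      rw [Nat.cast_sub h1, h0, Nat.cast_one, sub_self]
    exact (ZMod.natCast_eq_zero_iff _ _).1 h2
  have hpos : orderOf ((Fintype.card K : ℕ) : ZMod 11) ≠ 0 := by
    intro h0
    rw [Nat.card_eq_fintype_card, h0, zero_dvd_iff] at h3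
    rw [h3] at h1 h2
    -- `t = 0`
    have h4 : fx ((rh K (2 ^ m) x : GL WI K) : Matrix WI WI K) = Fintype.card WI := by rw [card_WI]; omega
    have h5 := eq_one_of_fx h4
    have h6 : x = 1 := rh_injective hm hK (Units.ext (by rw [h5, map_one, Units.val_one]))
    rw [h6, orderOf_one] at hx
    omega
  have hd : orderOf ((Fintype.card K : ℕ) : ZMod 11) = 2 := by omega
  rw [Nat.card_eq_fintype_card, hd] at h3
  have ht : t ≠ 0 := by
    intro h0
    rw [h0] at h1 h2
    have h4 : fx ((rh K (2 ^ m) x : GL WI K) : Matrix WI WI K) = Fintype.card WI := by rw [card_WI]; omega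
    have h5 := eq_one_of_fx h4
    have h6 : x = 1 := rh_injective hm hK (Units.ext (by rw [h5, map_one, Units.val_one]))
    rw [h6, orderOf_one] at hx
    omega
  omega

/-- **The automizer of an element of order 11 has no element of order 5.** -/
theorem no_conj (hm : 1 ≤ m) (hK : Fintype.card K = 2 ^ (2 * m + 1)) [hp : Fact (Nat.Prime 11)]
    (h : Hyp 11 2 ↥(twistedF4 K (2 ^ m))) {x g : ↥(twistedF4 K (2 ^ m))} (hx : orderOf x = 11) {j : ℕ}
    (hj : j = 3 ∨ j = 4 ∨ j = 5 ∨ j = 9) : g * x * g⁻¹ ≠ x ^ j := by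
  intro hg
  have hch : CharP K 2 := Cfsg.Agent.ChevalleyStructure.TwF4.Twisted.charP_two hK
  have hx11 : x ^ 11 = 1 := by rw [← hx]; exact pow_orderOf_eq_one x
  obtain ⟨g', hg'⟩ := conj_three hx11 hj hg
  have h11 : (11 : K) ≠ 0 := by
    have h1 : ((11 : ℕ) : K) = 1 := by
      have h2 : ((11 : ℕ) : K) = ((2 : ℕ) : K) * 5 + 1 := by norm_num
      rw [h2, CharP.cast_eq_zero, zero_mul, zero_add]
    intro h0
    apply one_ne_zero (α := K)
    rw [← h1]
    exact_mod_cast h0
  obtain ⟨k, hk⟩ := five_dvd h11 (A := rh K (2 ^ m) x) (G := rh K (2 ^ m) g') (by rw [← map_pow, hx11, map_one])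
    (by rw [← map_inv, ← map_mul, ← map_mul, hg', map_pow])
  rw [card_WI, fx_eleven hm hK h hx] at hk
  omega

end Main

end Cfsg.Agent.H969.TwF
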